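import Mathlib

/-! The exponent of `GL(n, 2)` and how few elements attain it. -/

set_option autoImplicit false

namespace CfsgLib.Spectrum

open Polynomial Matrix

/-- the candidate exponent of `GL(n,2)` -/
noncomputable def glTwoExp (n : ℕ) : ℕ := 2 ^ Nat.clog 2 n * (Finset.Icc 1 n).lcm (fun d => 2 ^ d - 1)

theorem pow_glTwoExp {n : ℕ} (g : GL (Fin n) (ZMod 2)) : g ^ glTwoExp n = 1 := by
  classical
  set M := (Finset.Icc 1 n).lcm (fun d => 2 ^ d - 1) with hM
  set c := (g : Matrix (Fin n) (Fin n) (ZMod 2)).charpoly with hc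
  have hcm : c.Monic := Matrix.charpoly_monic _
  have hdeg : c.natDegree = n := by rw [hc, Matrix.charpoly_natDegree_eq_dim, Fintype.card_fin]
  have hc0 : c.coeff 0 ≠ 0 := by
    have h1 : IsUnit (g : Matrix (Fin n) (Fin n) (ZMod 2)).det :=
      (Matrix.isUnit_iff_isUnit_det _).mp g.isUnit
    intro h
    have := Matrix.det_eq_sign_charpoly_coeff (g : Matrix (Fin n) (Fin n) (ZMod 2))
    rw [← hc, h, mul_zero] at this
    exact h1.ne_zero this
  have hfac : ∀ f ∈ UniqueFactorizationMonoid.normalizedFactors c, f ∣ X ^ M - 1 := by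
    intro f hf
    have hirr := UniqueFactorizationMonoid.irreducible_of_normalized_factor f hf
    have hdvd := UniqueFactorizationMonoid.dvd_of_mem_normalizedFactors hf
    have := Fact.mk hirr
    have hle : f.natDegree ≤ n := hdeg ▸ natDegree_le_of_dvd hdvd hcm.ne_zero
    have hpos : 0 < f.natDegree := hirr.natDegree_pos
    have hne : f ≠ 0 := hirr.ne_zero
    let K := AdjoinRoot f
    have : Finite K := by
      have := (AdjoinRoot.powerBasis hne).finite
      exact Module.finite_of_finite (ZMod 2)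
    have := Fintype.ofFinite K
    have hcard : Nat.card K = 2 ^ f.natDegree := by
      have := (AdjoinRoot.powerBasis hne).finite
      rw [Module.natCard_eq_pow_finrank (K := ZMod 2), Nat.card_zmod, (AdjoinRoot.powerBasis hne).finrank,
        AdjoinRoot.powerBasis_dim]
    have hr : AdjoinRoot.root f ≠ 0 := by
      intro h0
      have hX : f ∣ X := by
        rw [← AdjoinRoot.mk_eq_zero, AdjoinRoot.mk_X, h0]
      exact hc0 (Polynomial.X_dvd_iff.mp ((hirr.dvd_symm Polynomial.irreducible_X hX).trans hdvd))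
    rw [← AdjoinRoot.mk_eq_zero, map_sub, map_pow, map_one, AdjoinRoot.mk_X, sub_eq_zero]
    obtain ⟨e, he⟩ : 2 ^ f.natDegree - 1 ∣ M := Finset.dvd_lcm (Finset.mem_Icc.mpr ⟨hpos, hle⟩)
    rw [he, pow_mul, ← hcard, Nat.card_eq_fintype_card, FiniteField.pow_card_sub_one_eq_one _ hr, one_pow]
  have hprod : c ∣ (X ^ M - 1) ^ n := by
    have hp := UniqueFactorizationMonoid.prod_normalizedFactors hcm.ne_zero
    refine dvd_trans hp.symm.dvd ?_
    have h1 : (UniqueFactorizationMonoid.normalizedFactors c).prod ∣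
        (X ^ M - 1) ^ (UniqueFactorizationMonoid.normalizedFactors c).card := by
      generalize UniqueFactorizationMonoid.normalizedFactors c = S at hfac ⊢
      induction S using Multiset.induction with
      | empty => simp
      | cons a S ih =>
        rw [Multiset.prod_cons, Multiset.card_cons, pow_succ']
        exact mul_dvd_mul (hfac a (Multiset.mem_cons_self a S)) (ih fun f hf => hfac f (Multiset.mem_cons_of_mem hf))
    refine h1.trans (pow_dvd_pow _ ?_)
    have hdeg' : (UniqueFactorizationMonoid.normalizedFactors c).prod.natDegree = n := by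
      rw [← hdeg]; exact natDegree_eq_of_degree_eq (degree_eq_degree_of_associated hp)
    rw [← hdeg', natDegree_multiset_prod _ (fun h => (UniqueFactorizationMonoid.irreducible_of_normalized_factor _ h).ne_zero rfl)]
    calc (UniqueFactorizationMonoid.normalizedFactors c).card
        = ((UniqueFactorizationMonoid.normalizedFactors c).map fun _ => 1).sum := by simp
      _ ≤ _ := Multiset.sum_map_le_sum_map _ _ fun f hf =>
          (UniqueFactorizationMonoid.irreducible_of_normalized_factor f hf).natDegree_pos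
  have hdivn : c ∣ X ^ glTwoExp n - 1 := by
    refine hprod.trans ((pow_dvd_pow _ (Nat.le_pow_clog one_lt_two n)).trans (dvd_of_eq ?_))
    rw [sub_pow_char_pow, one_pow, ← pow_mul, glTwoExp, mul_comm, ← hM]
  obtain ⟨q, hq⟩ := hdivn
  have h2 := congrArg (Polynomial.aeval (g : Matrix (Fin n) (Fin n) (ZMod 2))) hq
  rw [map_sub, map_pow, aeval_X, map_one, map_mul, hc, Matrix.aeval_self_charpoly, zero_mul, sub_eq_zero] at h2
  exact Units.ext (by simpa using h2)

/-- an element of order `2^d - 1` in `GL(d,2)` -/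
theorem exists_singer (d : ℕ) (hd : d ≠ 0) : ∃ g : GL (Fin d) (ZMod 2), orderOf g = 2 ^ d - 1 := by
  classical
  let K := GaloisField 2 d
  have hfr : Module.finrank (ZMod 2) K = d := GaloisField.finrank 2 hd
  let b := (Module.finBasis (ZMod 2) K).reindex (finCongr hfr)
  let φ : Kˣ →* GL (Fin d) (ZMod 2) := Units.map (Algebra.leftMulMatrix b).toRingHom.toMonoidHom
  have hinj : Function.Injective φ := Units.map_injective (Algebra.leftMulMatrix_injective b)
  obtain ⟨u, hu⟩ := IsCyclic.exists_generator (α := Kˣ)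
  refine ⟨φ u, ?_⟩
  rw [orderOf_injective φ hinj, orderOf_eq_card_of_forall_mem_zpowers hu, Nat.card_units, GaloisField.card 2 d hd]

/-- block diagonal embedding -/
noncomputable def blockHom (a b : ℕ) :
    Matrix (Fin a) (Fin a) (ZMod 2) × Matrix (Fin b) (Fin b) (ZMod 2) →* Matrix (Fin (a + b)) (Fin (a + b)) (ZMod 2) where
  toFun p := Matrix.reindex finSumFinEquiv finSumFinEquiv (Matrix.fromBlocks p.1 0 0 p.2)
  map_one' := by
    simp only [Prod.fst_one, Prod.snd_one, Matrix.fromBlocks_one, Matrix.reindex_apply]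
    exact Matrix.submatrix_one_equiv _
  map_mul' p q := by
    simp only [Prod.fst_mul, Prod.snd_mul, Matrix.reindex_apply]
    rw [Matrix.submatrix_mul_equiv, Matrix.fromBlocks_multiply]
    simp

theorem blockHom_injective (a b : ℕ) : Function.Injective (blockHom a b) := by
  intro p q h
  have := (Matrix.reindex finSumFinEquiv finSumFinEquiv).injective h
  rw [Matrix.fromBlocks_inj] at this
  exact Prod.ext this.1 this.2.2.2

theorem exists_pair (a b : ℕ) (ha : a ≠ 0) (hb : b ≠ 0) :
    ∃ g : GL (Fin (a + b)) (ZMod 2), 2 ^ a - 1 ∣ orderOf g ∧ 2 ^ b - 1 ∣ orderOf g := by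
  obtain ⟨x, hx⟩ := exists_singer a ha
  obtain ⟨y, hy⟩ := exists_singer b hb
  let ψ : (Matrix (Fin a) (Fin a) (ZMod 2))ˣ × (Matrix (Fin b) (Fin b) (ZMod 2))ˣ →* GL (Fin (a + b)) (ZMod 2) :=
    (Units.map (blockHom a b)).comp MulEquiv.prodUnits.symm.toMonoidHom
  have hinj : Function.Injective ψ :=
    (Units.map_injective (blockHom_injective a b)).comp MulEquiv.prodUnits.symm.injective
  refine ⟨ψ (x, y), ?_⟩
  rw [orderOf_injective ψ hinj, Prod.orderOf, hx, hy]
  exact ⟨Nat.dvd_lcm_left _ _, Nat.dvd_lcm_right _ _⟩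

/-- a unipotent element of order `2^(clog n)` -/
theorem exists_unipotent (n : ℕ) (hn : 2 ≤ n) : ∃ g : GL (Fin n) (ZMod 2), orderOf g = 2 ^ Nat.clog 2 n := by
  classical
  let N : Matrix (Fin n) (Fin n) (ZMod 2) := Matrix.of fun i j => if (j : ℕ) = i + 1 then 1 else 0
  have hN : ∀ k, ∀ i j : Fin n, (N ^ k) i j = if (j : ℕ) = i + k then 1 else 0 := by
    intro k
    induction k with
    | zero => intro i j; simp [Matrix.one_apply, Fin.ext_iff, eq_comm]
    | succ k ih =>
      intro i j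
      rw [pow_succ, Matrix.mul_apply]
      simp only [ih, N, Matrix.of_apply]
      by_cases h : (i : ℕ) + k < n
      · rw [Finset.sum_eq_single ⟨i + k, h⟩]
        · simp [add_assoc]
        · intro l _ hl
          rw [if_neg fun e => hl (Fin.ext e), zero_mul]
        · simp
      · rw [Finset.sum_eq_zero fun l _ => by rw [if_neg (by omega), zero_mul], if_neg (by omega)]
  obtain ⟨t, ht⟩ : ∃ t, Nat.clog 2 n = t + 1 := ⟨Nat.clog 2 n - 1, by have := Nat.clog_pos one_lt_two hn; omega⟩
  have : Nonempty (Fin n) := ⟨⟨0, by omega⟩⟩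
  have hz : ∀ k, (1 + N) ^ 2 ^ k = 1 + N ^ 2 ^ k := fun k => by
    rw [add_pow_char_pow_of_commute (p := 2) (x := (1 : Matrix (Fin n) (Fin n) (ZMod 2))) (y := N) _ (Commute.one_left _), one_pow]
  have h0 : N ^ 2 ^ (t + 1) = 0 := by
    ext i j
    rw [hN, if_neg, Matrix.zero_apply]
    have := Nat.le_pow_clog one_lt_two n
    rw [ht] at this
    omega
  have hpow : (1 + N) ^ 2 ^ (t + 1) = 1 := by rw [hz, h0, add_zero]
  have hu : IsUnit (1 + N) := IsUnit.of_pow_eq_one hpow (by positivity)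
  refine ⟨hu.unit, ?_⟩
  rw [← orderOf_units, hu.unit_spec, ht]
  refine orderOf_eq_prime_pow ?_ hpow
  rw [hz, add_eq_left]
  intro h
  have hlt : 2 ^ t < n := by
    rw [← not_le, ← Nat.clog_le_iff_le_pow one_lt_two, ht]; omega
  have := congrFun (congrFun h ⟨0, by omega⟩) ⟨2 ^ t, hlt⟩
  rw [hN] at this
  simp at this

/-- `⌊(n+3)/2⌋` elements of `GL(n,2)` attain the exponent. -/
theorem exists_attain (n : ℕ) (hn : 2 ≤ n) :
    ∃ f : Fin ((n + 3) / 2) → GL (Fin n) (ZMod 2), ∀ m, (∀ i, f i ^ m = 1) → glTwoExp n ∣ m := by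
  classical
  obtain ⟨u, hu⟩ := exists_unipotent n hn
  obtain ⟨s, hs⟩ := exists_singer n (by omega)
  have hpair : ∀ d : ℕ, ∃ g : GL (Fin n) (ZMod 2), 1 ≤ d → d < n → 2 ^ d - 1 ∣ orderOf g ∧ 2 ^ (n - d) - 1 ∣ orderOf g := by
    intro d
    by_cases h : 1 ≤ d ∧ d < n
    · obtain ⟨g, h1, h2⟩ := exists_pair d (n - d) (by omega) (by omega)
      let e := Units.mapEquiv (Matrix.reindexAlgEquiv (ZMod 2) (ZMod 2) (finCongr (show d + (n - d) = n by omega))).toMulEquiv
      exact ⟨e g, fun _ _ => ⟨(MulEquiv.orderOf_eq e g).symm ▸ h1, (MulEquiv.orderOf_eq e g).symm ▸ h2⟩⟩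
    · exact ⟨1, fun a b => absurd ⟨a, b⟩ h⟩
  choose P hP using hpair
  refine ⟨fun i => if (i : ℕ) = 0 then u else if (i : ℕ) = 1 then s else P (i - 1), fun m hm => ?_⟩
  have h0 : 2 ^ Nat.clog 2 n ∣ m := by
    rw [← hu]; exact orderOf_dvd_of_pow_eq_one (by simpa using hm ⟨0, by omega⟩)
  have h1 : 2 ^ n - 1 ∣ m := by
    rw [← hs]; exact orderOf_dvd_of_pow_eq_one (by simpa using hm ⟨1, by omega⟩)
  have h2 : ∀ d, 1 ≤ d → 2 * d < n → 2 ^ d - 1 ∣ m ∧ 2 ^ (n - d) - 1 ∣ m := by
    intro d hd hdn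
    have := hm ⟨d + 1, by omega⟩
    simp only [Nat.add_eq_zero, one_ne_zero, and_false, if_false, add_tsub_cancel_right] at this
    rw [if_neg (by omega)] at this
    have hdo := orderOf_dvd_of_pow_eq_one this
    exact ⟨(hP d hd (by omega)).1.trans hdo, (hP d hd (by omega)).2.trans hdo⟩
  have hM : (Finset.Icc 1 n).lcm (fun d => 2 ^ d - 1) ∣ m := by
    refine Finset.lcm_dvd fun d hd => ?_
    rw [Finset.mem_Icc] at hd
    rcases lt_trichotomy (2 * d) n with h | h | h
    · exact (h2 d hd.1 h).1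
    · exact (Nat.pow_sub_one_dvd_pow_sub_one 2 ⟨2, by omega⟩).trans h1
    · rcases eq_or_lt_of_le hd.2 with rfl | hlt
      · exact h1
      · have := (h2 (n - d) (by omega) (by omega)).2
        rwa [show n - (n - d) = d by omega] at this
  refine Nat.Coprime.mul_dvd_of_dvd_of_dvd ?_ h0 hM
  refine Nat.Coprime.pow_left _ (Nat.coprime_two_left.mpr ?_)
  rw [Nat.odd_iff, ← Nat.two_dvd_ne_zero]
  intro h2d
  obtain ⟨d, hd, h⟩ := Nat.prime_two.prime.exists_mem_finset_dvd
    (h2d.trans (Finset.lcm_dvd fun b hb => Finset.dvd_prod_of_mem (fun d => 2 ^ d - 1) hb))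
  rw [Finset.mem_Icc] at hd
  have : 2 ∣ 2 ^ d := dvd_pow_self 2 (by omega)
  have hp := Nat.one_le_two_pow (n := d)
  omega

end CfsgLib.Spectrum
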