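import Cfsg.Agent.Lib.Spectrum.SLTorus

set_option autoImplicit false
set_option linter.unusedSectionVars false

/-!
# Element orders of powers of `PSL(n, q)`: absorbing a prime dividing `q - 1`
-/

namespace CfsgLib.Spectrum

open Matrix Polynomial

variable {F : Type*} [Field F] [Fintype F] {n : ℕ} {p a : ℕ} [hp : Fact p.Prime]

local notation "SL" => Matrix.SpecialLinearGroup (Fin n) F
local notation "PSL" => Matrix.ProjectiveSpecialLinearGroup (Fin n) F
local notation "Mat" => Matrix (Fin n) (Fin n) F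

/-- Either an element absorbs `r`, or its order is a `p`-power times a divisor of the torus. -/
theorem absorb_or_torus (hF : Fintype.card F = p ^ a) {L : Type*} [Field L] [Algebra F L]
    (b : Module.Basis (Fin n) F L) {r : ℕ} (hr : r.Prime) {l : F} (hl : l ^ r = 1)
    (hln : l ^ n ≠ 1) (u : PSL) (hu : ¬ r ∣ orderOf u) :
    (∃ v : PSL, orderOf v = orderOf u * r) ∨
      ∃ e : ℕ, orderOf u ∣ p ^ e * Nat.card ((singerTorus b).map toPSL) := by
  classical
  obtain ⟨x, rfl⟩ := toPSL_surjective u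
  obtain ⟨e, k, hk, hxk⟩ := Nat.exists_eq_pow_mul_and_not_dvd (orderOf_pos x).ne' p hp.out.ne_one
  have hy : ¬ p ∣ orderOf (x ^ p ^ e) := by
    rwa [orderOf_pow, hxk, Nat.gcd_mul_right_left, Nat.mul_div_cancel_left _ (pow_pos hp.out.pos e)]
  rcases idempotent_or_torus b hF (x ^ p ^ e) hy with ⟨E, hE, hE0, hE1, hcomm⟩ | ⟨P, w, hw, hPw⟩
  · left
    obtain ⟨t, ht, ht1, htc⟩ := exists_split hE hE0 hE1 hr.ne_zero hl hln
    refine ⟨toPSL x * toPSL t, orderOf_mul_of_not_dvd hr ?_ ht ht1 hu⟩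
    have hMy : (x : Mat) * ((x ^ p ^ e : SL) : Mat) = ((x ^ p ^ e : SL) : Mat) * (x : Mat) :=
      congrArg Subtype.val (Commute.self_pow x (p ^ e)).eq
    have : x * t = t * x := Subtype.ext (htc _ (hcomm _ hMy))
    exact (show Commute x t from this).map toPSL
  · right
    refine ⟨e, orderOf_dvd_of_pow_eq_one ?_⟩
    set D := Nat.card ((singerTorus b).map toPSL) with hD
    have hwD : toPSL w ^ D = 1 := by
      have h := pow_card_eq_one' (x := (⟨toPSL w, w, hw, rfl⟩ : (singerTorus b).map toPSL))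
      exact congrArg Subtype.val h
    rw [← map_pow] at hwD ⊢
    obtain ⟨s, hs⟩ := toPSL_eq_one_iff.mp hwD
    refine toPSL_eq_one_iff.mpr ⟨s, ?_⟩
    rw [pow_mul]
    have h1 : ((w ^ D : SL) : Mat) = (P : Mat) * (((x ^ p ^ e) ^ D : SL) : Mat) * (↑P⁻¹ : Mat) := by
      rw [Matrix.SpecialLinearGroup.coe_pow, Matrix.SpecialLinearGroup.coe_pow _ D, hPw,
        Units.conj_pow]
    rw [hs] at h1
    have h2 := congrArg (fun Z : Mat => (↑P⁻¹ : Mat) * Z * (P : Mat)) h1
    simp only [mul_assoc, Units.inv_mul, mul_one] at h2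
    rw [← mul_assoc (↑P⁻¹ : Mat) (P : Mat), Units.inv_mul, one_mul] at h2
    rw [← h2, (Matrix.scalar_commute s (fun r => Commute.all s r) (P : Mat)).eq, ← mul_assoc,
      Units.inv_mul, one_mul]

/-- A nilpotent shift bound: the `p`-part of an element order is at most `p ^ clog p n`. -/
theorem unipotent_bound (hF : Fintype.card F = p ^ a) (hn : 2 ≤ n) (u : PSL) (j : ℕ)
    (hu : u ^ p ^ j = 1) : u ^ p ^ Nat.clog p n = 1 := by
  classical
  have := charP_of_card_eq_prime_pow (R := F) hF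
  obtain ⟨x, rfl⟩ := toPSL_surjective u
  have : Nonempty (Fin n) := ⟨⟨0, by omega⟩⟩
  rw [← map_pow] at hu ⊢
  obtain ⟨s, hs⟩ := toPSL_eq_one_iff.mp hu
  obtain ⟨σ, hσ⟩ : ∃ σ : F, σ ^ p ^ j = s := by
    obtain ⟨σ, hσ⟩ := (Finite.injective_iff_surjective.mp (iterateFrobenius F p j).injective) s
    exact ⟨σ, by rw [← hσ, iterateFrobenius_def]⟩
  have hc : Commute (x : Mat) (Matrix.scalar (Fin n) σ) :=
    (Matrix.scalar_commute σ (fun r => Commute.all σ r) (x : Mat)).symm
  have hnil : IsNilpotent ((x : Mat) - Matrix.scalar (Fin n) σ) := by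
    refine ⟨p ^ j, ?_⟩
    rw [sub_pow_char_pow_of_commute (p := p) _ hc, ← map_pow, hσ, ← Matrix.SpecialLinearGroup.coe_pow, hs,
      sub_self]
  have hzero : ((x : Mat) - Matrix.scalar (Fin n) σ) ^ n = 0 := by
    have h := Matrix.aeval_self_charpoly ((x : Mat) - Matrix.scalar (Fin n) σ)
    have h3 : ((x : Mat) - Matrix.scalar (Fin n) σ).charpoly = X ^ n := by
      have := (Matrix.isNilpotent_charpoly_sub_pow_of_isNilpotent hnil).eq_zero
      rwa [sub_eq_zero, Fintype.card_fin] at this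
    rwa [h3, map_pow, aeval_X] at h
  refine toPSL_eq_one_iff.mpr ⟨σ ^ p ^ Nat.clog p n, ?_⟩
  rw [Matrix.SpecialLinearGroup.coe_pow, map_pow, ← sub_eq_zero,
    ← sub_pow_char_pow_of_commute (p := p) _ hc]
  exact pow_eq_zero_of_le (Nat.le_pow_clog hp.out.one_lt n) hzero

/-- The shift on the first `n - 1` coordinates. -/
def shift : Mat := Matrix.of fun i j => if (j : ℕ) = i + 1 ∧ (j : ℕ) + 1 < n then 1 else 0

theorem shift_pow_succ (k : ℕ) (i j : Fin n) :
    ((shift (F := F) (n := n)) ^ (k + 1)) i j =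
      if (j : ℕ) = i + (k + 1) ∧ (j : ℕ) + 1 < n then 1 else 0 := by
  induction k generalizing i j with
  | zero => simp [shift]
  | succ k ih =>
    rw [pow_succ, Matrix.mul_apply]
    simp only [ih]
    simp only [shift, Matrix.of_apply]
    by_cases h : (i : ℕ) + (k + 1) + 1 < n
    · rw [Finset.sum_eq_single ⟨i + (k + 1), by omega⟩]
      · simp [add_assoc]
        split_ifs <;> first | rfl | omega
      · intro l _ hl
        rw [if_neg fun e => hl (Fin.ext e.1), zero_mul]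
      · simp
    · rw [Finset.sum_eq_zero fun l _ => by rw [if_neg (by omega), zero_mul], if_neg (by omega)]

/-- An element of order `p ^ clog p n * r` when `n - 1` is not a power of `p`. -/
theorem exists_unipotent_split (hF : Fintype.card F = p ^ a) (hn : 2 ≤ n)
    (hne : ¬ ∃ j : ℕ, n - 1 = p ^ j) {r : ℕ} (hr : r.Prime) (hrp : r ≠ p) {l : F}
    (hl : l ^ r = 1) (hln : l ^ n ≠ 1) :
    ∃ v : PSL, orderOf v = p ^ Nat.clog p n * r := by
  classical
  have := charP_of_card_eq_prime_pow (R := F) hF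
  have hn3 : 3 ≤ n := by
    by_contra h
    exact hne ⟨0, by rw [pow_zero]; omega⟩
  have : Nonempty (Fin n) := ⟨⟨0, by omega⟩⟩
  set N : Mat := shift with hN
  let e : Mat := Matrix.diagonal fun i => if (i : ℕ) + 1 < n then 1 else 0
  have he : e * e = e := by
    simp only [e, Matrix.diagonal_mul_diagonal]
    congr 1; ext i; split <;> simp
  have he0 : e ≠ 0 := fun h => by
    have := congrFun (congrFun h ⟨0, by omega⟩) ⟨0, by omega⟩
    simp [e, show 1 < n by omega] at this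
  have he1 : e ≠ 1 := fun h => by
    have := congrFun (congrFun h ⟨n - 1, by omega⟩) ⟨n - 1, by omega⟩
    simp [e, show ¬ (n - 1 + 1 < n) by omega] at this
  have hNe : N * e = e * N := by
    ext i j
    simp only [e, N, shift, Matrix.mul_diagonal, Matrix.diagonal_mul, Matrix.of_apply]
    by_cases h : (j : ℕ) = i + 1 ∧ (j : ℕ) + 1 < n
    · simp [h.1 ▸ h.2, show (i : ℕ) + 1 < n by omega, h]
    · simp [h]
  have hdet : (1 + N).det = 1 := by
    rw [Matrix.det_of_isUpperTriangular]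
    · refine Finset.prod_eq_one fun i _ => ?_
      simp [N, shift]
    · intro i j hij
      have : (j : ℕ) < i := hij
      simp [N, shift, Matrix.one_apply, Fin.ext_iff, show ¬ (i : ℕ) = j by omega,
        show ¬ (j : ℕ) = i + 1 by omega]
  let u : SL := ⟨1 + N, hdet⟩
  obtain ⟨c, hc⟩ : ∃ c, Nat.clog p n = c + 1 :=
    ⟨Nat.clog p n - 1, by have := Nat.clog_pos hp.out.one_lt hn; omega⟩
  have hpc : p ^ c < n := by
    have := Nat.pow_pred_clog_lt_self hp.out.one_lt (by omega : 1 < n)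
    rw [hc] at this
    simpa using this
  have hpc' : p ^ c + 1 < n := by
    rcases Nat.lt_or_ge (p ^ c + 1) n with h | h
    · exact h
    · exact absurd ⟨c, by omega⟩ hne
  have hpow : ∀ k, (1 + N) ^ p ^ k = 1 + N ^ p ^ k := fun k => by
    rw [add_pow_char_pow_of_commute (p := p) _ (Commute.one_left N), one_pow]
  have hord : orderOf (toPSL u) = p ^ Nat.clog p n := by
    rw [hc]
    apply orderOf_eq_prime_pow
    · rw [← map_pow, toPSL_eq_one_iff]
      rintro ⟨s, hs⟩
      rw [Matrix.SpecialLinearGroup.coe_pow] at hs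
      change (1 + N) ^ p ^ c = _ at hs
      rw [hpow] at hs
      obtain ⟨d, hd⟩ : ∃ d, p ^ c = d + 1 := ⟨p ^ c - 1, by have := pow_pos hp.out.pos c; omega⟩
      have h := congrFun (congrFun hs ⟨0, by omega⟩) ⟨p ^ c, hpc⟩
      rw [Matrix.add_apply, Matrix.scalar_apply,
        Matrix.diagonal_apply_ne _ (by simp [Fin.ext_iff]; omega),
        Matrix.one_apply_ne (by simp [Fin.ext_iff]; omega), zero_add] at h
      rw [show N ^ p ^ c = N ^ (d + 1) from by rw [hd], shift_pow_succ, if_pos (by simp [← hd]; exact hpc')] at h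
      exact one_ne_zero h
    · rw [← map_pow, toPSL_eq_one_iff]
      refine ⟨1, ?_⟩
      rw [Matrix.SpecialLinearGroup.coe_pow, map_one]
      show (1 + N) ^ p ^ (c + 1) = 1
      rw [hpow, ← hc, add_eq_left]
      obtain ⟨d, hd⟩ : ∃ d, p ^ Nat.clog p n = d + 1 :=
        ⟨p ^ Nat.clog p n - 1, by have := pow_pos hp.out.pos (Nat.clog p n); omega⟩
      ext i j
      rw [hd, shift_pow_succ, if_neg, Matrix.zero_apply]
      have := Nat.le_pow_clog hp.out.one_lt n
      omega
  obtain ⟨t, ht, ht1, htc⟩ := exists_split he he0 he1 hr.ne_zero hl hln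
  refine ⟨toPSL u * toPSL t, ?_⟩
  rw [orderOf_mul_of_not_dvd hr ?_ ht ht1 ?_, hord]
  · exact ((show Commute u t from Subtype.ext (htc (1 + N) (by
      rw [add_mul, mul_add, one_mul, mul_one, hNe]))).map toPSL)
  · rw [hord]
    intro h
    exact hrp ((Nat.prime_dvd_prime_iff_eq hr hp.out).mp (hr.dvd_of_dvd_pow h))

theorem exists_orderOf_of_dvd {G : Type*} [Group G] [Finite G] {d : ℕ} (g : G)
    (h : d ∣ orderOf g) : ∃ g' : G, orderOf g' = d := by
  refine ⟨g ^ (orderOf g / d), ?_⟩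
  have hd : 0 < d := Nat.pos_of_dvd_of_pos h (orderOf_pos g)
  have hne : orderOf g / d ≠ 0 := (Nat.div_pos (Nat.le_of_dvd (orderOf_pos g) h) hd).ne'
  rw [orderOf_pow_of_dvd hne (Nat.div_dvd_of_dvd h), Nat.div_div_self h (orderOf_pos g).ne']

theorem mem_spec_of_mul {G : Type*} [Group G] [Finite G] {H : Type*} [Group H] [Finite H]
    {N M : ℕ} {g : G} {h : H} (hg : orderOf g = N) (hh : orderOf h = M) :
    Nat.lcm N M ∈ Set.range (orderOf : G × H → ℕ) :=
  ⟨(g, h), by rw [Prod.orderOf, hg, hh]⟩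

variable (hF : Fintype.card F = p ^ a) {r : ℕ} (hr : r.Prime)
  (hrq : r ∣ Fintype.card F - 1) (hrn : ¬ r ∣ n)

include hF hr hrq hrn

theorem setup (hn : 2 ≤ n) : ∃ (l : F), l ^ r = 1 ∧ l ^ n ≠ 1 ∧ r ≠ p := by
  classical
  have : Fact r.Prime := ⟨hr⟩
  obtain ⟨u, hu⟩ := exists_prime_orderOf_dvd_card' (G := Fˣ) r
    (by rwa [Nat.card_units, Nat.card_eq_fintype_card])
  refine ⟨(u : F), ?_, fun h => hrn ?_, fun h => ?_⟩
  · rw [← Units.val_pow_eq_pow_val, ← hu, pow_orderOf_eq_one]; rfl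
  · rw [← hu]
    exact orderOf_dvd_of_pow_eq_one (Units.ext (by rw [Units.val_pow_eq_pow_val]; exact h))
  · subst h
    rw [hF] at hrq
    have ha : a ≠ 0 := fun ha => by
      have := Fintype.one_lt_card (α := F)
      rw [hF, ha, pow_zero] at this; omega
    have h1 : r ∣ r ^ a := dvd_pow_self r ha
    have := (Nat.dvd_sub h1 hrq)
    rw [Nat.sub_sub_self (Nat.one_le_pow _ _ hr.pos)] at this
    exact hr.one_lt.ne' (Nat.dvd_one.mp this)

/-- In all torus-type slots, the order factors through the torus and a `p`-power slot. -/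
theorem torus_factor (hn : 2 ≤ n) {L : Type*} [Field L] [Algebra F L]
    (b : Module.Basis (Fin n) F L) {N : ℕ} (hN : N ≠ 0) {e : ℕ}
    (h : N ∣ p ^ e * Nat.card ((singerTorus b).map (toPSL (F := F)))) :
    ∃ g : PSL, N = p ^ N.factorization p * orderOf g ∧ ¬ p ∣ orderOf g := by
  classical
  have := singerTorus_isCyclic b
  set T := (singerTorus b).map (toPSL (F := F)) with hT
  have hcyc : IsCyclic T := isCyclic_of_surjective (toPSL.subgroupMap (singerTorus b))
    (MonoidHom.subgroupMap_surjective _ _)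
  have hdvd : N / p ^ N.factorization p ∣ Nat.card T :=
    ((Nat.coprime_ordCompl hp.out hN).symm.pow_right e).dvd_of_dvd_mul_left
      ((Nat.ordCompl_dvd N p).trans h)
  obtain ⟨g, hg⟩ := IsCyclic.exists_generator (α := T)
  obtain ⟨g', hg'⟩ := exists_orderOf_of_dvd g (hdvd.trans (orderOf_eq_card_of_forall_mem_zpowers hg).symm.dvd)
  refine ⟨g'.1, ?_, ?_⟩
  · rw [Subgroup.orderOf_coe, hg', Nat.ordProj_mul_ordCompl_eq_self]
  · rw [Subgroup.orderOf_coe, hg']
    exact Nat.not_dvd_ordCompl hp.out hN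

theorem cube_absorb (hn : 2 ≤ n) (x y z : PSL) :
    Nat.lcm (Nat.lcm (orderOf x) (Nat.lcm (orderOf y) (orderOf z))) r ∈
      Set.range (orderOf : PSL × PSL × PSL → ℕ) := by
  classical
  set N := Nat.lcm (orderOf x) (Nat.lcm (orderOf y) (orderOf z)) with hN
  by_cases hrN : r ∣ N
  · rw [Nat.lcm_eq_left hrN]
    exact ⟨(x, y, z), by rw [Prod.orderOf, Prod.orderOf]⟩
  have hrx : ¬ r ∣ orderOf x := fun h => hrN (h.trans (Nat.dvd_lcm_left _ _))
  have hry : ¬ r ∣ orderOf y := fun h =>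
    hrN ((h.trans (Nat.dvd_lcm_left _ _)).trans (Nat.dvd_lcm_right _ _))
  have hrz : ¬ r ∣ orderOf z := fun h =>
    hrN ((h.trans (Nat.dvd_lcm_right _ _)).trans (Nat.dvd_lcm_right _ _))
  have hN0 : N ≠ 0 := Nat.lcm_ne_zero (orderOf_pos x).ne'
    (Nat.lcm_ne_zero (orderOf_pos y).ne' (orderOf_pos z).ne')
  obtain ⟨l, hl, hln, hrp⟩ := setup hF hr hrq hrn hn
  have := charP_of_card_eq_prime_pow (R := F) hF
  have : NeZero n := ⟨by omega⟩
  let b := (Module.finBasis F (FiniteField.Extension F p n)).reindex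
    (finCongr (FiniteField.finrank_extension F p n))
  have lm : ∀ k : ℕ, ¬ r ∣ k → Nat.lcm k r = k * r := fun k hk =>
    ((Nat.Prime.coprime_iff_not_dvd hr).mpr hk).symm.lcm_eq_mul
  rcases absorb_or_torus hF b hr hl hln x hrx with ⟨v, hv⟩ | ⟨e₁, h₁⟩
  · exact ⟨(v, y, z), by simp only [Prod.orderOf]; rw [hv, ← lm _ hrx, hN]; ac_rfl⟩
  rcases absorb_or_torus hF b hr hl hln y hry with ⟨v, hv⟩ | ⟨e₂, h₂⟩
  · exact ⟨(x, v, z), by simp only [Prod.orderOf]; rw [hv, ← lm _ hry, hN]; ac_rfl⟩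
  rcases absorb_or_torus hF b hr hl hln z hrz with ⟨v, hv⟩ | ⟨e₃, h₃⟩
  · exact ⟨(x, y, v), by simp only [Prod.orderOf]; rw [hv, ← lm _ hrz, hN]; ac_rfl⟩
  have hlcm : N ∣ p ^ (e₁ + (e₂ + e₃)) * Nat.card ((singerTorus b).map (toPSL (F := F))) := by
    refine Nat.lcm_dvd (h₁.trans ?_) (Nat.lcm_dvd (h₂.trans ?_) (h₃.trans ?_)) <;>
      exact Nat.mul_dvd_mul_right (pow_dvd_pow p (by omega)) _
  obtain ⟨g, hg, hgp⟩ := torus_factor hF hr hrq hrn hn b hN0 hlcm
  -- a slot realising the `p`-part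
  obtain ⟨u, hu⟩ : ∃ u : PSL, orderOf u = p ^ N.factorization p := by
    have hfac : N.factorization p = max ((orderOf x).factorization p)
        (max ((orderOf y).factorization p) ((orderOf z).factorization p)) := by
      rw [hN, Nat.factorization_lcm (orderOf_pos x).ne'
        (Nat.lcm_ne_zero (orderOf_pos y).ne' (orderOf_pos z).ne'),
        Finsupp.sup_apply, Nat.factorization_lcm (orderOf_pos y).ne' (orderOf_pos z).ne',
        Finsupp.sup_apply]
    rw [hfac]
    rcases max_choice ((orderOf x).factorization p)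
      (max ((orderOf y).factorization p) ((orderOf z).factorization p)) with h | h <;> rw [h]
    · exact exists_orderOf_of_dvd x (Nat.ordProj_dvd _ _)
    rcases max_choice ((orderOf y).factorization p) ((orderOf z).factorization p) with h | h <;>
      rw [h]
    · exact exists_orderOf_of_dvd y (Nat.ordProj_dvd _ _)
    · exact exists_orderOf_of_dvd z (Nat.ordProj_dvd _ _)
  let e : Mat := Matrix.diagonal fun i => if (i : ℕ) = 0 then 1 else 0
  obtain ⟨t, ht, ht1, -⟩ := exists_split (e := e)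
    (by simp only [e, Matrix.diagonal_mul_diagonal]; congr 1; ext i; split <;> simp)
    (fun h => by have := congrFun (congrFun h ⟨0, by omega⟩) ⟨0, by omega⟩; simp [e] at this)
    (fun h => by have := congrFun (congrFun h ⟨1, by omega⟩) ⟨1, by omega⟩; simp [e] at this)
    hr.ne_zero hl hln
  have : Fact r.Prime := ⟨hr⟩
  refine ⟨(u, g, toPSL t), ?_⟩
  rw [Prod.orderOf, Prod.orderOf, hu, orderOf_eq_prime ht ht1, ← Nat.lcm_assoc,
    (((Nat.Prime.coprime_iff_not_dvd hp.out).mpr hgp).pow_left _).lcm_eq_mul, ← hg]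

theorem square_absorb (hn : 2 ≤ n) (hne : ¬ ∃ j : ℕ, n - 1 = p ^ j) (x y : PSL) :
    Nat.lcm (Nat.lcm (orderOf x) (orderOf y)) r ∈ Set.range (orderOf : PSL × PSL → ℕ) := by
  classical
  set N := Nat.lcm (orderOf x) (orderOf y) with hN
  by_cases hrN : r ∣ N
  · rw [Nat.lcm_eq_left hrN]
    exact ⟨(x, y), by rw [Prod.orderOf]⟩
  have hrx : ¬ r ∣ orderOf x := fun h => hrN (h.trans (Nat.dvd_lcm_left _ _))
  have hry : ¬ r ∣ orderOf y := fun h => hrN (h.trans (Nat.dvd_lcm_right _ _))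
  have hN0 : N ≠ 0 := Nat.lcm_ne_zero (orderOf_pos x).ne' (orderOf_pos y).ne'
  obtain ⟨l, hl, hln, hrp⟩ := setup hF hr hrq hrn hn
  have := charP_of_card_eq_prime_pow (R := F) hF
  have : NeZero n := ⟨by omega⟩
  let b := (Module.finBasis F (FiniteField.Extension F p n)).reindex
    (finCongr (FiniteField.finrank_extension F p n))
  have lm : ∀ k : ℕ, ¬ r ∣ k → Nat.lcm k r = k * r := fun k hk =>
    ((Nat.Prime.coprime_iff_not_dvd hr).mpr hk).symm.lcm_eq_mul
  rcases absorb_or_torus hF b hr hl hln x hrx with ⟨v, hv⟩ | ⟨e₁, h₁⟩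
  · exact ⟨(v, y), by simp only [Prod.orderOf]; rw [hv, ← lm _ hrx, hN]; ac_rfl⟩
  rcases absorb_or_torus hF b hr hl hln y hry with ⟨v, hv⟩ | ⟨e₂, h₂⟩
  · exact ⟨(x, v), by simp only [Prod.orderOf]; rw [hv, ← lm _ hry, hN]; ac_rfl⟩
  obtain ⟨g, hg, hgp⟩ := torus_factor hF hr hrq hrn hn b hN0 (e := e₁ + e₂)
    (Nat.lcm_dvd (h₁.trans (Nat.mul_dvd_mul_right (pow_dvd_pow p (by omega)) _))
      (h₂.trans (Nat.mul_dvd_mul_right (pow_dvd_pow p (by omega)) _)))
  obtain ⟨v, hv⟩ := exists_unipotent_split hF hn hne hr hrp hl hln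
  have hb : N.factorization p ≤ Nat.clog p n := by
    have key : ∀ w : PSL, (orderOf w).factorization p ≤ Nat.clog p n := fun w => by
      obtain ⟨w', hw'⟩ := exists_orderOf_of_dvd w (Nat.ordProj_dvd (orderOf w) p)
      have h := orderOf_dvd_of_pow_eq_one (unipotent_bound hF hn w' _ (hw' ▸ pow_orderOf_eq_one w'))
      rwa [hw', Nat.pow_dvd_pow_iff_le_right hp.out.one_lt] at h
    rw [hN, Nat.factorization_lcm (orderOf_pos x).ne' (orderOf_pos y).ne', Finsupp.sup_apply]
    exact sup_le (key x) (key y)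
  obtain ⟨v', hv'⟩ := exists_orderOf_of_dvd v
    (hv ▸ Nat.mul_dvd_mul_right (pow_dvd_pow p hb) r : p ^ N.factorization p * r ∣ orderOf v)
  refine ⟨(v', g), ?_⟩
  have hrg : ¬ r ∣ orderOf g := fun h => hrN (hg ▸ h.mul_left _)
  have hrpp : ¬ r ∣ p ^ N.factorization p := fun h =>
    hrp ((Nat.prime_dvd_prime_iff_eq hr hp.out).mp (hr.dvd_of_dvd_pow h))
  rw [Prod.orderOf, hv', ← lm _ hrpp, Nat.lcm_assoc, Nat.lcm_comm r (orderOf g), ← Nat.lcm_assoc,
    (((Nat.Prime.coprime_iff_not_dvd hp.out).mpr hgp).pow_left _).lcm_eq_mul, ← hg]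

end CfsgLib.Spectrum
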